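import Cfsg.Agent.H128.EP.AsmPsl
import Cfsg.Agent.H793.EP.SLC1
import Cfsg.Agent.H793.EP.SLC4
import Cfsg.Agent.H622.EP.SubL
import Cfsg.Agent.H358.EP.SLC7
import Cfsg.Agent.H458.EP.C8Sp
import Cfsg.Agent.H135.EP.C8U
import Cfsg.Agent.H72.EPX.SLO
import Cfsg.Agent.H245.EP.SixC

/-!
# S3499-III: `PslNonRes` from the rows (C2), (C3); all other rows are plugged in
-/

set_option autoImplicit false

namespace Cfsg.Agent.H128.EP

open Subgroup Cfsg.Agent.H284 Cfsg.Agent.H419.EP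
open scoped MatrixGroups

theorem row_c1 : Row C1 := by
  rintro Q _ _ hs A Γ h F _ _ n m hn h32 h34 h42 ⟨W, h0, h1, hle⟩
  exact H793.EP.sl_c1 hs h m hn h0 h1 hle

theorem row_c4 : Row C4 := by
  rintro Q _ _ hs A Γ h F _ _ n m hn h32 h34 h42 ⟨n₁, n₂, e, P, h1, h2, hle⟩
  exact H793.EP.sl_c4 hs h m e P h1 h2 hle

theorem row_c5 : Row C5 := by
  rintro Q _ _ hs A Γ h F _ _ n m hn h32 h34 h42 ⟨F₀, r, P, h1, h2, hle⟩
  exact H622.EP.sl_C5 h m hn h34 F₀ h1 h2 P hle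

theorem row_c6 : Row C6 := by
  rintro Q _ _ hs A Γ h F _ _ n m hn h32 h34 h42 ⟨r, R, h1, hle⟩
  exact H245.EP.sl_c6' hs h m hn h34 h1 le_rfl hle

theorem row_c7 : Row C7 := by
  rintro Q _ _ hs A Γ h F _ _ n m hn h32 h34 h42 ⟨k, t, e, P, h1, h2, hle⟩
  exact H358.EP.slC7 h m h1 h2 e P hle

theorem row_c8sp : Row C8Sp := by
  rintro Q _ _ hs A Γ h F _ _ n m hn h32 h34 h42 ⟨f, h1, h2, h3, hle⟩
  exact H458.EP.sl_c8sp h m h3 h1 hle

theorem row_c8u : Row C8U := by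
  rintro Q _ _ hs A Γ h F _ _ n m hn h32 h34 h42 ⟨σ, f, h1, h2, hle⟩
  exact H135.EP.sl_c8u hs h m hn h32 h34 h42 h1 hle

theorem row_c8o : Row C8O := by
  rintro Q _ _ hs A Γ h F _ _ n m hn h32 h34 h42 ⟨Qf, h1, h2, h3, hle⟩
  exact H72.EPX.c8o hs h h2 hn m h1 hle

/-- **`PslNonRes` from the rows (C2) and (C3)** -/
theorem pslNonRes_of' (r2 : Row C2) (r3 : Row C3) : PslNonRes :=
  pslNonRes_of row_c1 r2 r3 row_c4 row_c5 row_c6 row_c7 row_c8sp row_c8u row_c8o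

end Cfsg.Agent.H128.EP
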